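import Cfsg.Agent.KnownA.G23.Rep

/-!
# No non-trivial involutive automorphism commutes with elements of order seven or thirteen
-/

set_option autoImplicit false

namespace Cfsg.Agent.KnownA.G23

open Finset
open scoped Matrix

/-- the data attached to one element -/
structure CertX (p d : ℕ) where
  X : M3
  w : Fin 19 → Fin 7 → ZMod 3
  q : Fin 7 → M3
  u : M3
  nM : M3
  kM : Matrix (Fin d) (Fin 7) (ZMod 3)
  eM : Matrix (Fin 7) (Fin d) (ZMod 3)
  lM : M3
  P : Fin d → M3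
  hw : ∀ i : Fin 18, X *ᵥ w i.castSucc = w i.succ
  hq0 : q 0 = 1
  hq : ∀ i : Fin 6, X * q i.castSucc = q i.succ
  hu : u * Matrix.of (fun i (j : Fin 7) => w (j.castLE (by norm_num)) i) = 1
  hN : ∀ i : Fin 7, w ⟨3 * i, by omega⟩ = Matrix.of (fun a (j : Fin 7) => w (j.castLE (by norm_num)) a) *ᵥ
    (fun a => nM a i)
  hE : eM * kM + lM * (nM - 1) = 1
  hP : ∀ j, P j = ∑ i, eM i j • q i
  hbad : ∀ a : Fin d → ZMod 3, (∑ j, a j • P j) * (∑ j, a j • P j) = 1 →
    (∀ k, (∑ j, a j • P j) * cT k = adv (fun l => (∑ j, a j • P j) l k) * (∑ j, a j • P j)) → ∑ j, a j • P j = 1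

variable {p d : ℕ} (C : CertX p d)

theorem q_pow : ∀ i : Fin 7, C.q i = C.X ^ (i : ℕ) := by
  intro i
  induction i using Fin.induction with
  | zero => rw [C.hq0]; simp
  | succ i ih => rw [← C.hq, ih, Fin.val_succ, pow_succ', Fin.val_castSucc]

theorem w_pow : ∀ i : Fin 19, C.w i = (C.X ^ (i : ℕ)) *ᵥ C.w 0 := by
  intro i
  induction i using Fin.induction with
  | zero => simp
  | succ i ih => rw [← C.hw, ih, Matrix.mulVec_mulVec, Fin.val_succ, pow_succ', Fin.val_castSucc]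

/-- the Krylov matrix -/
def kry : M3 := Matrix.of fun i (j : Fin 7) => C.w (j.castLE (by norm_num)) i

theorem kry_mulVec (c : Fin 7 → ZMod 3) :
    kry C *ᵥ c = ∑ i : Fin 7, c i • ((C.X ^ (i : ℕ)) *ᵥ C.w 0) := by
  ext a
  simp only [kry, Matrix.mulVec, dotProduct, Matrix.of_apply, Finset.sum_apply, Pi.smul_apply, smul_eq_mul]
  refine Finset.sum_congr rfl fun i _ => ?_
  rw [mul_comm]
  congr 1
  exact congrFun (w_pow C _) a

theorem exists_poly {Y : M3} (hc : Commute Y C.X) :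
    ∃ c : Fin 7 → ZMod 3, Y = ∑ i : Fin 7, c i • C.X ^ (i : ℕ) := by
  refine ⟨C.u *ᵥ (Y *ᵥ C.w 0), ?_⟩
  set c := C.u *ᵥ (Y *ᵥ C.w 0)
  set S := ∑ i : Fin 7, c i • C.X ^ (i : ℕ) with hS
  have hv : S *ᵥ C.w 0 = Y *ᵥ C.w 0 := by
    rw [hS, Matrix.sum_mulVec]
    simp only [Matrix.smul_mulVec]
    rw [← kry_mulVec, Matrix.mulVec_mulVec, show kry C * C.u = 1 from mul_eq_one_comm.1 C.hu, Matrix.one_mulVec]
  have hSc : Commute S C.X := by
    rw [hS]
    exact Commute.sum_left _ _ _ fun i _ => (Commute.pow_self C.X _).smul_left _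
  have e : Y * kry C = S * kry C := by
    ext a j
    have h1 : ∀ Z : M3, Commute Z C.X → (Z * kry C) a j = ((C.X ^ (j : ℕ)) *ᵥ (Z *ᵥ C.w 0)) a := by
      intro Z hZ
      rw [Matrix.mulVec_mulVec, ← (hZ.pow_right _).eq, ← Matrix.mulVec_mulVec]
      show (Z *ᵥ C.w (j.castLE _)) a = _
      rw [w_pow]
      rfl
    rw [h1 Y hc, h1 S hSc, hv]
  have := congrArg (· * C.u) e
  simp only [Matrix.mul_assoc] at this
  rwa [show kry C * C.u = 1 from mul_eq_one_comm.1 C.hu, Matrix.mul_one, Matrix.mul_one] at this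

theorem frob (c : Fin 7 → ZMod 3) (Z : M3) :
    (∑ i : Fin 7, c i • Z ^ (i : ℕ)) ^ 3 = ∑ i : Fin 7, c i • (Z ^ 3) ^ (i : ℕ) := by
  haveI : Fact (Nat.Prime 3) := ⟨Nat.prime_three⟩
  classical
  suffices ∀ s : Finset (Fin 7), (∑ i ∈ s, c i • Z ^ (i : ℕ)) ^ 3 = ∑ i ∈ s, c i • (Z ^ 3) ^ (i : ℕ) from
    this Finset.univ
  intro s
  induction s using Finset.induction_on with
  | empty => simp
  | insert a s ha ih =>
    rw [Finset.sum_insert ha, Finset.sum_insert ha, add_pow_char_of_commute (p := 3), ih, smul_pow,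
      ZMod.pow_card, ← pow_mul, ← pow_mul, mul_comm]
    exact Commute.sum_right _ _ _ fun i _ => ((Commute.refl Z).pow_pow _ _).smul_left _ |>.smul_right _

theorem frob_iter (c : Fin 7 → ZMod 3) (Z : M3) (k : ℕ) :
    (∑ i : Fin 7, c i • Z ^ (i : ℕ)) ^ (3 ^ k) = ∑ i : Fin 7, c i • (Z ^ (3 ^ k)) ^ (i : ℕ) := by
  induction k with
  | zero => simp
  | succ k ih => rw [pow_succ, pow_mul, ih, frob, ← pow_mul]

include C in
theorem eq_one_of_sq {Y : M3} (hc : Commute Y C.X) (h2 : Y * Y = 1) (hA : AutB Y) : Y = 1 := by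
  obtain ⟨c, hY⟩ := exists_poly C hc
  have h3 : Y ^ 3 = Y := by rw [pow_three, h2, Matrix.mul_one]
  have hv := congrArg (fun Z => Z *ᵥ C.w 0) (show (∑ i : Fin 7, c i • (C.X ^ 3) ^ (i : ℕ)) =
    ∑ i : Fin 7, c i • C.X ^ (i : ℕ) by rw [← frob, ← hY, h3])
  simp only [Matrix.sum_mulVec, Matrix.smul_mulVec] at hv
  rw [← kry_mulVec] at hv
  have hn : kry C *ᵥ (C.nM *ᵥ c) = ∑ i : Fin 7, c i • (((C.X ^ 3) ^ (i : ℕ)) *ᵥ C.w 0) := by
    have h : ∀ i : Fin 7, ((C.X ^ 3) ^ (i : ℕ)) *ᵥ C.w 0 = kry C *ᵥ fun a => C.nM a i := fun i => by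
      rw [← pow_mul]
      exact (w_pow C ⟨3 * i, by omega⟩).symm.trans (C.hN i)
    have h' : ∀ i : Fin 7, c i • (((C.X ^ 3) ^ (i : ℕ)) *ᵥ C.w 0) = kry C *ᵥ (c i • fun a => C.nM a i) := fun i => by
      rw [h i, Matrix.mulVec_smul]
    rw [Finset.sum_congr rfl fun i _ => h' i, ← Matrix.mulVec_sum]
    have hnc : C.nM *ᵥ c = ∑ i : Fin 7, c i • (fun a => C.nM a i) := by
      funext a
      simp only [Matrix.mulVec, dotProduct, Finset.sum_apply, Pi.smul_apply, smul_eq_mul]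
      exact Finset.sum_congr rfl fun i _ => mul_comm _ _
    rw [hnc]
  rw [← hn] at hv
  have hc' : C.nM *ᵥ c = c := by
    have := congrArg (fun v => C.u *ᵥ v) hv
    simpa [Matrix.mulVec_mulVec, ← Matrix.mul_assoc, show C.u * kry C = 1 from C.hu] using this
  have he : c = C.eM *ᵥ (C.kM *ᵥ c) := by
    have := congrArg (fun Z => Z *ᵥ c) C.hE
    simp only [Matrix.add_mulVec, Matrix.one_mulVec, ← Matrix.mulVec_mulVec, Matrix.sub_mulVec, hc', sub_self,
      Matrix.mulVec_zero, add_zero] at this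
    exact this.symm
  have hP : Y = ∑ j, (C.kM *ᵥ c) j • C.P j := by
    rw [hY]
    conv_lhs => rw [he]
    simp only [C.hP, q_pow, Matrix.mulVec, dotProduct, Finset.sum_smul, Finset.smul_sum, smul_smul]
    rw [Finset.sum_comm]
    exact Finset.sum_congr rfl fun j _ => Finset.sum_congr rfl fun i _ => by rw [mul_comm]
  rw [hP] at h2 hA ⊢
  exact C.hbad _ h2 hA

/-- the certificate for order seven -/
def cert7 : CertX 7 2 where
  X := x7
  w := w7
  q := q7
  u := u7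
  nM := n7
  kM := k7
  eM := e7
  lM := l7
  P := p7
  hw := by decide +kernel
  hq0 := by decide +kernel
  hq := by decide +kernel
  hu := by decide +kernel
  hN := by decide +kernel
  hE := by decide +kernel
  hP := by decide +kernel
  hbad := by decide +kernel

/-- the certificate for order thirteen -/
def cert13 : CertX 13 3 where
  X := x13
  w := w13
  q := q13
  u := u13
  nM := n13
  kM := k13
  eM := e13
  lM := l13
  P := p13
  hw := by decide +kernel
  hq0 := by decide +kernel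
  hq := by decide +kernel
  hu := by decide +kernel
  hN := by decide +kernel
  hE := by decide +kernel
  hP := by decide +kernel
  hbad := by decide +kernel

/-- the words giving the elements -/
theorem wordData : x6 = gT 0 * gT 0 * gT 11 ∧ x7 = gT 0 * gT 1 * gT 3 * gT 11 ∧ x13 = gT 0 * gT 4 * gT 9 ∧
    x7 * q7 6 = 1 ∧ q13 6 * q13 6 * x13 = 1 ∧ x7 ≠ 1 ∧ x13 ≠ 1 ∧ x6 * x6 ≠ 1 ∧ x6 * x6 * x6 ≠ 1 ∧
    x6 * x6 * x6 * (x6 * x6 * x6) = 1 := by
  refine ⟨?_, ?_, ?_, ?_, ?_, ?_, ?_, ?_, ?_, ?_⟩ <;> decide +kernel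

end Cfsg.Agent.KnownA.G23
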