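import Cfsg.Agent.KnownA.G23.Cent
import Cfsg.Agent.Chev.OrdersByType
import Cfsg.Agent.Linear.PSL2Spectrum

/-!
# `G₂(3)` and `PSL₂(13)` have the same prime graph
-/

set_option autoImplicit false

universe u

namespace Cfsg.Agent.KnownA.G23

open Cfsg.Lie Cfsg.Agent.Chev Cfsg.Agent.Suzuki

section
variable (F : Type u) [Field F] [Fintype F] [CharP F 3] (hF : Fintype.card F = 3)

/-- a root element with parameter one -/
noncomputable def gen (r : Fin 12) : ↥(chevG2.group F) := ⟨Ree.cG.xu r 1, Ree.cG.xu_mem_group _ _⟩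

include hF in
theorem card_g23 : Nat.card ↥(chevG2.group F) = 4245696 := by rw [orderG2 hF]; norm_num

include hF in
theorem exists_elements : (∃ g : ↥(chevG2.group F), orderOf g = 6) ∧
    (∃ x : ↥(chevG2.group F), orderOf x = 7 ∧ rho F hF x = x7) ∧
    ∃ x : ↥(chevG2.group F), orderOf x = 13 ∧ rho F hF x = x13 := by
  obtain ⟨w6, w7', w13', h7, h13, n7', n13', a2, a3, a6⟩ := wordData
  have hg : ∀ r : Fin 12, rho F hF (gen F r) = gT r := fun r => rho_xu F hF r
  have key : ∀ {x : ↥(chevG2.group F)} {m : M3} {n : ℕ}, rho F hF x = m → m ^ n = 1 → x ^ n = 1 :=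
    fun {x m n} e h => rho_injective F hF (by rw [map_pow, e, h, map_one])
  refine ⟨⟨gen F 0 * gen F 0 * gen F 11, ?_⟩, ⟨gen F 0 * gen F 1 * gen F 3 * gen F 11, ?_, ?_⟩,
    ⟨gen F 0 * gen F 4 * gen F 9, ?_, ?_⟩⟩
  · have e : rho F hF (gen F 0 * gen F 0 * gen F 11) = x6 := by rw [map_mul, map_mul, hg, hg, ← w6]
    have hpow : (gen F 0 * gen F 0 * gen F 11) ^ 6 = 1 := key e (by
      rw [show x6 ^ 6 = x6 * x6 * x6 * (x6 * x6 * x6) by simp only [pow_succ, pow_zero, one_mul, mul_assoc]]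
      exact a6)
    have hd := orderOf_dvd_of_pow_eq_one hpow
    have h2 : ¬ orderOf (gen F 0 * gen F 0 * gen F 11) ∣ 2 := fun h => a2 (by
      have := congrArg (rho F hF) (orderOf_dvd_iff_pow_eq_one.1 h)
      rwa [map_pow, e, map_one, pow_two] at this)
    have h3 : ¬ orderOf (gen F 0 * gen F 0 * gen F 11) ∣ 3 := fun h => a3 (by
      have := congrArg (rho F hF) (orderOf_dvd_iff_pow_eq_one.1 h)
      rwa [map_pow, e, map_one, pow_three'] at this)
    have hle := Nat.le_of_dvd (by norm_num) hd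
    generalize orderOf (gen F 0 * gen F 0 * gen F 11) = o at hd h2 h3 hle ⊢
    interval_cases o <;> first
      | rfl
      | (norm_num at hd; done)
      | (norm_num at h2; done)
      | (norm_num at h3; done)
  · have e : rho F hF (gen F 0 * gen F 1 * gen F 3 * gen F 11) = x7 := by
      rw [map_mul, map_mul, map_mul, hg, hg, hg, hg, ← w7']
    haveI : Fact (Nat.Prime 7) := ⟨by norm_num⟩
    refine orderOf_eq_prime (key e ?_) fun h => n7' (by rw [← e, h, map_one])
    have h6 : q7 6 = x7 ^ 6 := q_pow cert7 6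
    rw [h6, ← pow_succ'] at h7
    exact h7
  · rw [map_mul, map_mul, map_mul, hg, hg, hg, hg, ← w7']
  · have e : rho F hF (gen F 0 * gen F 4 * gen F 9) = x13 := by rw [map_mul, map_mul, hg, hg, hg, ← w13']
    haveI : Fact (Nat.Prime 13) := ⟨by norm_num⟩
    refine orderOf_eq_prime (key e ?_) fun h => n13' (by rw [← e, h, map_one])
    have h6 : q13 6 = x13 ^ 6 := q_pow cert13 6
    rw [h6, ← pow_add, ← pow_succ] at h13
    exact h13
  · rw [map_mul, map_mul, hg, hg, hg, ← w13']

include hF in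
/-- Elements of order seven or thirteen centralise no element of another prime order, thirteen and seven apart. -/
theorem no_commuting {p d k : ℕ} [Fact p.Prime] (C : CertX p d) (hX : ∃ x : ↥(chevG2.group F), orderOf x = p ∧ rho F hF x = C.X)
    (hp : (Nat.card ↥(chevG2.group F)).factorization p = 1) (hk : 3 ^ k % p = 1) {g y : ↥(chevG2.group F)}
    (hg : orderOf g = p) (hy : Commute y g) {s : ℕ} (hs : s.Prime) (hys : orderOf y = s)
    (hdiv : s ∣ 3 ^ k - 1 → s = 2) : False := by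
  classical
  obtain ⟨x, hxo, hxX⟩ := hX
  haveI : Finite ↥(chevG2.group F) := Nat.finite_of_card_ne_zero (by rw [card_g23 F hF]; norm_num)
  let P : Sylow p ↥(chevG2.group F) := Sylow.ofCard (Subgroup.zpowers g) (by rw [Nat.card_zpowers, hg, hp, pow_one])
  let Q : Sylow p ↥(chevG2.group F) := Sylow.ofCard (Subgroup.zpowers x) (by rw [Nat.card_zpowers, hxo, hp, pow_one])
  obtain ⟨h, hh⟩ := MulAction.exists_smul_eq ↥(chevG2.group F) Q P
  have hxg : h * x * h⁻¹ ∈ Subgroup.zpowers g := by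
    have hm : h * x * h⁻¹ ∈ ((h • Q : Sylow p ↥(chevG2.group F)) : Subgroup ↥(chevG2.group F)) := by
      rw [Sylow.smul_def, Sylow.pointwise_smul_def]
      exact ⟨x, Subgroup.mem_zpowers x, rfl⟩
    rw [hh] at hm
    exact hm
  obtain ⟨n, hn⟩ := hxg
  have hc : Commute (h⁻¹ * y * h) x := by
    have : Commute y (h * x * h⁻¹) := hn ▸ hy.zpow_right n
    have h1 := this.map (MulAut.conj h⁻¹).toMonoidHom
    simpa [mul_assoc] using h1
  have hys' : orderOf (h⁻¹ * y * h) = s := by
    rw [← hys]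
    simpa using orderOf_injective (MulAut.conj h⁻¹).toMonoidHom (MulAut.conj h⁻¹).injective y
  set z := h⁻¹ * y * h with hz
  set Y := rho F hF z with hY
  have hcY : Commute Y C.X := hxX ▸ hc.map (rho F hF)
  obtain ⟨c, hcY'⟩ := exists_poly C hcY
  have hXp : C.X ^ (3 ^ k) = C.X := by
    rw [← hxX, ← map_pow, ← pow_mod_orderOf, hxo, hk, pow_one]
  have hzk : z ^ (3 ^ k) = z := rho_injective F hF (by
    rw [map_pow, ← hY, hcY', frob_iter, hXp])
  have hdvd : s ∣ 3 ^ k - 1 := by
    rw [← hys']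
    refine orderOf_dvd_of_pow_eq_one (mul_right_cancel (b := z) ?_)
    rw [← pow_succ, Nat.sub_add_cancel (Nat.one_le_pow _ _ (by norm_num)), hzk, one_mul]
  obtain rfl := hdiv hdvd
  have h1 : Y = 1 := eq_one_of_sq C hcY (by
    rw [hY, ← map_mul, ← pow_two, ← hys', pow_orderOf_eq_one, map_one]) (rho_aut F hF z)
  have : z = 1 := rho_injective F hF (by rw [← hY, h1, map_one])
  rw [this, orderOf_one] at hys'
  exact absurd hys' (by norm_num)

include hF in
theorem graph_g23 : (∀ r : ℕ, r.Prime → (r ∣ Nat.card ↥(chevG2.group F) ↔ (r = 2 ∨ r = 3 ∨ r = 7 ∨ r = 13))) ∧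
    ∀ r s : ℕ, r.Prime → s.Prime → r ≠ s →
      ((∃ x : ↥(chevG2.group F), orderOf x = r * s) ↔ (r = 2 ∧ s = 3 ∨ r = 3 ∧ s = 2)) := by
  have hcard := card_g23 F hF
  haveI : Finite ↥(chevG2.group F) := Nat.finite_of_card_ne_zero (by rw [hcard]; norm_num)
  have hdiv : ∀ r : ℕ, r.Prime → (r ∣ Nat.card ↥(chevG2.group F) ↔ (r = 2 ∨ r = 3 ∨ r = 7 ∨ r = 13)) := by
    intro r hr
    rw [hcard]
    constructor
    · intro hd
      rw [show (4245696 : ℕ) = 2 ^ 6 * 3 ^ 6 * 7 * 13 by norm_num] at hd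
      simp only [Nat.Prime.dvd_mul hr] at hd
      rcases hd with ((h | h) | h) | h
      · exact Or.inl ((Nat.prime_dvd_prime_iff_eq hr Nat.prime_two).1 (hr.dvd_of_dvd_pow h))
      · exact Or.inr (Or.inl ((Nat.prime_dvd_prime_iff_eq hr Nat.prime_three).1 (hr.dvd_of_dvd_pow h)))
      · exact Or.inr (Or.inr (Or.inl ((Nat.prime_dvd_prime_iff_eq hr (by norm_num)).1 h)))
      · exact Or.inr (Or.inr (Or.inr ((Nat.prime_dvd_prime_iff_eq hr (by norm_num)).1 h)))
    · rintro (rfl | rfl | rfl | rfl) <;> norm_num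
  refine ⟨hdiv, fun r s hr hs hne => ?_⟩
  obtain ⟨⟨g6, hg6⟩, hx7, hx13⟩ := exists_elements F hF
  have f : (Nat.card ↥(chevG2.group F)).factorization 7 = 1 ∧
      (Nat.card ↥(chevG2.group F)).factorization 13 = 1 := by
    refine ⟨?_, ?_⟩ <;>
      refine le_antisymm ?_ ((Nat.Prime.dvd_iff_one_le_factorization (by norm_num) (by rw [hcard]; norm_num)).1
        (by rw [hcard]; norm_num)) <;>
      refine Nat.lt_succ_iff.1 (lt_of_not_ge fun h => ?_) <;>
      rw [← Nat.Prime.pow_dvd_iff_le_factorization (by norm_num) (by rw [hcard]; norm_num), hcard] at h <;>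
      norm_num at h
  have key : ∀ r s : ℕ, r.Prime → s.Prime → r ≠ s → (r = 7 ∨ r = 13) →
      ∀ x : ↥(chevG2.group F), orderOf x = r * s → False := by
    intro r s hr hs hne h x hx
    have h1 : orderOf (x ^ s) = r := by
      rw [orderOf_pow_of_dvd hs.ne_zero (hx ▸ dvd_mul_left s r), hx, Nat.mul_div_cancel _ hs.pos]
    have h2 : orderOf (x ^ r) = s := by
      rw [orderOf_pow_of_dvd hr.ne_zero (hx ▸ dvd_mul_right r s), hx, Nat.mul_div_cancel_left _ hr.pos]
    have hsd : s = 2 ∨ s = 3 ∨ s = 7 ∨ s = 13 := (hdiv s hs).1 (h2 ▸ orderOf_dvd_natCard _)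
    haveI : Fact (Nat.Prime 7) := ⟨by norm_num⟩
    haveI : Fact (Nat.Prime 13) := ⟨by norm_num⟩
    have k13 : ∀ {g y : ↥(chevG2.group F)} {t : ℕ}, orderOf g = 13 → Commute y g → t.Prime → orderOf y = t →
        (t = 2 ∨ t = 3 ∨ t = 7) → False := fun {g y t} hg hc ht hy h' =>
      no_commuting F hF (k := 3) cert13 hx13 f.2 (by norm_num) hg hc ht hy (by
        rcases h' with rfl | rfl | rfl <;> norm_num)
    rcases h with rfl | rfl
    · rcases hsd with rfl | rfl | rfl | rfl
      · exact no_commuting F hF (k := 6) cert7 hx7 f.1 (by norm_num) h1 (Commute.pow_pow_self x _ _) hs h2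
          (fun _ => rfl)
      · exact no_commuting F hF (k := 6) cert7 hx7 f.1 (by norm_num) h1 (Commute.pow_pow_self x _ _) hs h2
          (by norm_num)
      · exact hne rfl
      · exact k13 h2 (Commute.pow_pow_self x _ _) hr h1 (Or.inr (Or.inr rfl))
    · exact k13 h1 (Commute.pow_pow_self x _ _) hs h2 (by omega)
  constructor
  · rintro ⟨x, hx⟩
    have hrd := (hdiv r hr).1 ((hx ▸ orderOf_dvd_natCard x : r * s ∣ _) |> dvd_trans (dvd_mul_right r s))
    have hsd := (hdiv s hs).1 ((hx ▸ orderOf_dvd_natCard x : r * s ∣ _) |> dvd_trans (dvd_mul_left s r))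
    by_cases h : r = 7 ∨ r = 13
    · exact (key r s hr hs hne h x hx).elim
    by_cases h' : s = 7 ∨ s = 13
    · exact (key s r hs hr (Ne.symm hne) h' x (by rw [hx, mul_comm])).elim
    omega
  · rintro (⟨rfl, rfl⟩ | ⟨rfl, rfl⟩) <;> exact ⟨g6, hg6⟩

end

/-- The statement. -/
theorem same_graph {F : Type*} [Field F] [Fintype F] (hF : Fintype.card F = 3) {E : Type*} [Field E] [Fintype E]
    (hE : Fintype.card E = 13) :
    ((∀ r : ℕ, r.Prime → (r ∣ Nat.card ↥(chevG2.group F) ↔ r ∣ Nat.card (Matrix.ProjectiveSpecialLinearGroup (Fin 2) E))) ∧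
      (∀ r s : ℕ, r.Prime → s.Prime → r ≠ s → ((∃ x : ↥(chevG2.group F), orderOf x = r * s) ↔ (∃ y : (Matrix.ProjectiveSpecialLinearGroup (Fin 2) E), orderOf y = r * s)))) := by
  classical
  haveI : Fact (Nat.Prime 13) := ⟨by norm_num⟩
  haveI : Fact (Nat.Prime 3) := ⟨Nat.prime_three⟩
  haveI : CharP F 3 := charP_of_card_eq_prime hF
  haveI : CharP E 13 := charP_of_card_eq_prime hE
  obtain ⟨hd, he⟩ := graph_g23 F hF
  have hs := Cfsg.Agent.Linear.PSL2Classes.range_orderOf (F := E) 13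
  rw [hE] at hs
  norm_num at hs
  have mem : ∀ m : ℕ, (∃ y : Matrix.ProjectiveSpecialLinearGroup (Fin 2) E, orderOf y = m) ↔
      (m ∣ 13 ∨ m ∣ 6 ∨ m ∣ 7) := fun m => by
    have := Set.ext_iff.1 hs m
    simpa using this
  refine ⟨fun r hr => ?_, fun r s hr hs' hne => ?_⟩
  · haveI := Fact.mk hr
    rw [hd r hr]
    constructor
    · intro h
      obtain ⟨y, hy⟩ := (mem r).2 (by rcases h with rfl | rfl | rfl | rfl <;> norm_num)
      exact hy ▸ orderOf_dvd_natCard y
    · intro h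
      obtain ⟨y, hy⟩ := exists_prime_orderOf_dvd_card' r h
      rcases (mem r).1 ⟨y, hy⟩ with h | h | h
      · exact Or.inr (Or.inr (Or.inr ((Nat.prime_dvd_prime_iff_eq hr (by norm_num)).1 h)))
      · rcases hr.dvd_mul.1 (show r ∣ 2 * 3 from h) with h | h
        · exact Or.inl ((Nat.prime_dvd_prime_iff_eq hr Nat.prime_two).1 h)
        · exact Or.inr (Or.inl ((Nat.prime_dvd_prime_iff_eq hr Nat.prime_three).1 h))
      · exact Or.inr (Or.inr (Or.inl ((Nat.prime_dvd_prime_iff_eq hr (by norm_num)).1 h)))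
  · rw [he r s hr hs' hne, mem]
    constructor
    · rintro (⟨rfl, rfl⟩ | ⟨rfl, rfl⟩) <;> norm_num
    · intro h
      have h4 : 4 ≤ r * s := Nat.mul_le_mul hr.two_le hs'.two_le
      have hle : ∀ {n : ℕ}, n.Prime → r * s ∣ n → False := fun {n} hn hd' => by
        rcases (Nat.dvd_prime hn).1 hd' with e | e
        · omega
        · exact (Nat.not_prime_mul hr.ne_one hs'.ne_one) (e ▸ hn)
      rcases h with h | h | h
      · exact (hle (by norm_num) h).elim
      · have h1 : r ∣ 6 := dvd_trans (dvd_mul_right r s) h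
        have h2 : s ∣ 6 := dvd_trans (dvd_mul_left s r) h
        have := Nat.le_of_dvd (by norm_num) h1
        have := Nat.le_of_dvd (by norm_num) h2
        have := hr.two_le
        have := hs'.two_le
        interval_cases r <;> interval_cases s <;> revert h hr hs' hne <;> decide
      · exact (hle (by norm_num) h).elim

end Cfsg.Agent.KnownA.G23
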