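import Cfsg.Agent.KnownA.G23.Data
import Cfsg.Agent.Suzuki.ReeRep

/-!
# `G₂(3)` as automorphisms of its seven-dimensional algebra
-/

set_option autoImplicit false

universe u

namespace Cfsg.Agent.KnownA.G23

open Cfsg.Lie Cfsg.Agent.Chev Cfsg.Agent.Suzuki
open scoped Matrix

/-- the adjoint matrix of a vector -/
def adv (v : Fin 7 → ZMod 3) : M3 := ∑ l, v l • cT l

/-- the automorphism condition on the basis -/
def AutB (A : M3) : Prop := ∀ k, A * cT k = adv (fun l => A l k) * A

theorem adv_mulVec (A : M3) (hA : AutB A) (v : Fin 7 → ZMod 3) : A * adv v = adv (A *ᵥ v) * A := by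
  have h : adv (A *ᵥ v) = ∑ k, v k • adv (fun l => A l k) := by
    simp only [adv, Matrix.mulVec, dotProduct, Finset.sum_smul, Finset.smul_sum]
    rw [Finset.sum_comm]
    exact Finset.sum_congr rfl fun k _ => Finset.sum_congr rfl fun l _ => by rw [smul_smul, mul_comm]
  rw [h, adv, Finset.mul_sum, Finset.sum_mul]
  exact Finset.sum_congr rfl fun k _ => by rw [Matrix.mul_smul, Matrix.smul_mul, hA k]

theorem adv_single (k : Fin 7) : adv (Pi.single k 1) = cT k := by
  simp [adv, Pi.single_apply, ite_smul]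

theorem autB_iff (A : M3) : AutB A ↔ ∀ v, A * adv v = adv (A *ᵥ v) * A := by
  refine ⟨adv_mulVec A, fun h k => ?_⟩
  have := h (Pi.single k 1)
  rwa [adv_single, Matrix.mulVec_single_one] at this

theorem autB_mul {A B : M3} (hA : AutB A) (hB : AutB B) : AutB (A * B) := by
  rw [autB_iff] at hA hB ⊢
  intro v
  rw [Matrix.mul_assoc, hB, ← Matrix.mul_assoc, hA, Matrix.mulVec_mulVec, Matrix.mul_assoc]

theorem autB_one : AutB 1 := (autB_iff 1).2 fun v => by simp

theorem autB_inv {A B : M3} (hA : AutB A) (h : A * B = 1) : AutB B := by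
  rw [autB_iff] at hA ⊢
  intro v
  have h' : B * A = 1 := mul_eq_one_comm.1 h
  have := hA (B *ᵥ v)
  rw [Matrix.mulVec_mulVec, h, Matrix.one_mulVec] at this
  calc B * adv v = B * (adv v * A) * B := by rw [Matrix.mul_assoc, Matrix.mul_assoc, h, Matrix.mul_one]
    _ = B * (A * adv (B *ᵥ v)) * B := by rw [this]
    _ = adv (B *ᵥ v) * B := by rw [← Matrix.mul_assoc, h', Matrix.one_mul]

theorem gT_data : ∀ r : Fin 12, gT r = Matrix.of fun i j => (if i = j then (1 : ZMod 3) else 0) +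
    ∑ m ∈ Finset.range 3, ((Ree.coeffA r (m + 1) (Ree.ιI i) (Ree.ιI j) : ℤ) : ZMod 3) := by
  decide +kernel

theorem gT_aut : ∀ r : Fin 12, ∀ k, gT r * cT k = adv (fun l => gT r l k) * gT r := by decide +kernel

variable (F : Type u) [Field F] [Fintype F] [CharP F 3] (hF : Fintype.card F = 3)

/-- the prime field -/
noncomputable def iso : ZMod 3 ≃+* F := ZMod.ringEquivOfPrime F Nat.prime_three hF

/-- The seven-dimensional representation over `ℤ/3`. -/
noncomputable def rho : ↥(chevG2.group F) →* M3 where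
  toFun g := (iso F hF).symm.toRingHom.mapMatrix (Ree.rI (g : GL chevG2.Idx F))
  map_one' := by rw [OneMemClass.coe_one, Ree.one_props.2.1, map_one]
  map_mul' g h := by rw [Subgroup.coe_mul, Ree.rI_mul g.2 h.2, map_mul]

theorem rho_injective : Function.Injective (rho F hF) := by
  intro g h e
  refine Subtype.ext (Ree.rI_inj g.2 h.2 ?_)
  ext i j
  exact (iso F hF).symm.injective (congrFun (congrFun e i) j)

theorem rho_xu (r : Fin 12) : rho F hF ⟨Ree.cG.xu r 1, Ree.cG.xu_mem_group _ _⟩ = gT r := by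
  ext i j
  show (iso F hF).symm (Ree.rI (Ree.cG.xu r (1 : F)) i j) = gT r i j
  rw [Ree.rI_apply, Ree.cG.coe_xu, Ree.x_entry r.isLt, gT_data r, Matrix.of_apply]
  simp only [map_add, map_sum, one_pow, one_mul, map_intCast]
  congr 1
  have hinj : (Ree.ιI i = Ree.ιI j) = (i = j) := by
    have h1 : ∀ a b : Fin 7, (Ree.ιI a = Ree.ιI b ↔ a = b) := by decide
    exact propext (h1 i j)
  simp only [hinj, apply_ite (iso F hF).symm, map_one, map_zero]

theorem rho_aut (g : ↥(chevG2.group F)) : AutB (rho F hF g) := by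
  obtain ⟨g, hg⟩ := g
  have hg' := hg
  rw [Ree.cG.group_eq_closure] at hg'
  induction hg' using Subgroup.closure_induction with
  | mem x hx =>
    obtain ⟨r, hr, t, rfl⟩ := hx
    have h1 : AutB (rho F hF ⟨Ree.cG.xu r 1, Ree.cG.xu_mem_group _ _⟩) := by
      rw [show (⟨Ree.cG.xu r 1, _⟩ : ↥(chevG2.group F)) = ⟨Ree.cG.xu ((⟨r, hr⟩ : Fin 12) : ℕ) 1,
        Ree.cG.xu_mem_group _ _⟩ from rfl, rho_xu]
      exact fun k => gT_aut _ k
    obtain ⟨n, rfl⟩ := ZMod.ringEquivOfPrime F Nat.prime_three hF |>.surjective t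
    have hn : ∀ n : ℕ, Ree.cG.xu r (n : F) = Ree.cG.xu r 1 ^ n := fun n => by
      induction n with
      | zero => rw [Nat.cast_zero, Ree.cG.xu_zero, pow_zero]
      | succ n ih => rw [Nat.cast_succ, ← Ree.cG.xu_add, ih, pow_succ]
    have e : (⟨Ree.cG.xu r (iso F hF n), hg⟩ : ↥(chevG2.group F)) =
        ⟨Ree.cG.xu r 1, Ree.cG.xu_mem_group _ _⟩ ^ n.val := by
      apply Subtype.ext
      rw [SubgroupClass.coe_pow, ← hn]
      congr 1
    show AutB (rho F hF ⟨Ree.cG.xu r (iso F hF n), hg⟩)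
    rw [e, map_pow]
    generalize n.val = k
    induction k with
    | zero => rw [pow_zero]; exact autB_one
    | succ k ih => rw [pow_succ]; exact autB_mul ih h1
  | one => rw [show (⟨1, hg⟩ : ↥(chevG2.group F)) = 1 from rfl, map_one]; exact autB_one
  | mul x y hx hy ihx ihy =>
    rw [← Ree.cG.group_eq_closure] at hx hy
    rw [show (⟨x * y, hg⟩ : ↥(chevG2.group F)) = ⟨x, hx⟩ * ⟨y, hy⟩ from rfl, map_mul]
    exact autB_mul (ihx hx) (ihy hy)
  | inv x hx ihx =>
    rw [← Ree.cG.group_eq_closure] at hx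
    refine autB_inv (ihx hx) ?_
    rw [← map_mul, show (⟨x, hx⟩ : ↥(chevG2.group F)) * ⟨x⁻¹, hg⟩ = 1 from Subtype.ext (mul_inv_cancel x),
      map_one]

end Cfsg.Agent.KnownA.G23
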